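import Cfsg.Agent.H42.SimXBSpec
import Cfsg.Agent.H58.PsuGraph

/-! Slot SIM-XB-M2U (S3694). -/

set_option autoImplicit false

namespace H75.SimM2U

open Subgroup Cfsg H98 Matrix H0.Sim H42.SX

section

variable {n q : ℕ} {F : Type} [Field F]

/-- the adjoint -/
def ad (q : ℕ) (m : Mt n F) : Mt n F := (m.map (· ^ q))ᵀ

variable [Fintype F]

theorem ad_eq (hF : Fintype.card F = q ^ 2) (m : Mt n F) :
    ad q m = (m.map (H59.frobAut hF))ᵀ := rfl

theorem ad_add (hF : Fintype.card F = q ^ 2) (a b : Mt n F) : ad q (a + b) = ad q a + ad q b := by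
  simp only [ad_eq hF]
  rw [Matrix.map_add _ (map_add _), transpose_add]

theorem ad_mul (hF : Fintype.card F = q ^ 2) (a b : Mt n F) : ad q (a * b) = ad q b * ad q a := by
  simp only [ad_eq hF]
  rw [Matrix.map_mul, transpose_mul]

theorem ad_ad (hF : Fintype.card F = q ^ 2) (a : Mt n F) : ad q (ad q a) = a := by
  simp only [ad_eq hF]
  ext i j
  simp [H58.frobAut_frobAut hF]

theorem mem_GU (hF : Fintype.card F = q ^ 2) (g : GL (Fin n) F) :
    g ∈ GU n F q ↔ ad q (g : Mt n F) * (g : Mt n F) = 1 := by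
  rw [H58.mem_GU_iff' hF, ad_eq hF]
  constructor
  · intro h
    simpa [transpose_mul] using congrArg transpose h
  · intro h
    simpa [transpose_mul] using congrArg transpose h

end

theorem jobM2U : H42.SX.JobM2U := by
  intro stu qsu nq n F K _ _ _ _ _ ι q p H Q A b kt hr hc hs
  have hF : Fintype.card F = q ^ 2 := by simpa using kt.par.card
  have hn := kt.par.two
  have hq := H59.two_le_q hF
  have i0 : Fin n := ⟨0, by omega⟩
  have : Nonempty (Fin n) := ⟨i0⟩
  have hadA : ∀ m ∈ Set.range ι, ad q m ∈ Set.range ι := fun m hm => by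
    rw [hr] at hm ⊢
    exact kt.adj rfl m hm
  have hst : ∀ a ∈ cn ι, ad q a ∈ cn ι := fun a ha => by
    rw [Subring.mem_centralizer_iff] at ha ⊢
    intro m hm
    have := congrArg (ad q) (ha _ (hadA m hm))
    rw [ad_mul hF, ad_mul hF, ad_ad hF] at this
    exact this.symm
  obtain ⟨c, hcq⟩ : ∃ c : F, c ^ q ≠ c := by
    by_contra hh
    push Not at hh
    exact H58.frobAut_ne_one hF (RingEquiv.ext hh)
  have hz : Matrix.scalar (Fin n) c ∈ cn ι := by
    rw [Subring.mem_centralizer_iff]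
    intro m _
    exact (Matrix.scalar_commute c (fun r => Commute.all c r) m).eq.symm
  obtain ⟨K', _, _, k, q', φ, hk, hK', hφ⟩ := stu (cn ι) (fun a => ⟨ad q a, hst a a.2⟩)
    (fun a b => Subtype.ext (ad_add hF _ _)) (fun a b => Subtype.ext (ad_mul hF _ _))
    (fun a => Subtype.ext (ad_ad hF _)) ⟨⟨_, hz⟩, fun a =>
      Subtype.ext (Matrix.scalar_commute c (fun r => Commute.all c r) _).eq, fun e => hcq (by
        have := congrFun (congrFun (congrArg Subtype.val e) i0) i0
        simpa [ad] using this)⟩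
  have hφ' : ∀ a : cn ι, φ ⟨ad q a, hst a a.2⟩ = ad q' (φ a) := hφ
  have hι : ∀ x : K, ι x ∈ cn ι := fun x => by
    rw [Subring.mem_centralizer_iff]
    rintro _ ⟨y, rfl⟩
    rw [← map_mul, ← map_mul, mul_comm]
  have hsc : ∀ x : K, ∃ t : K', Matrix.scalar (Fin k) t = φ ⟨ι x, hι x⟩ := fun x => by
    refine Matrix.mem_range_scalar_iff_commute_single'.2 fun i j => ?_
    obtain ⟨a, ha⟩ := φ.surjective (Matrix.single i j 1)
    rw [← ha, Commute, SemiconjBy, ← map_mul, ← map_mul]
    congr 1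
    exact Subtype.ext ((Subring.mem_centralizer_iff.1 a.2) _ ⟨x, rfl⟩).symm
  choose f hf using hsc
  have finj : Function.Injective f := fun x y e => by
    have h1 : φ ⟨ι x, hι x⟩ = φ ⟨ι y, hι y⟩ := by rw [← hf, ← hf, e]
    exact (ι : K →+* Mt n F).injective (congrArg Subtype.val (φ.injective h1))
  have hcard := Fintype.card_le_of_injective f finj
  have hq' : 4 ≤ q' := by
    by_contra hh
    have h1 : q' ^ 2 ≤ 3 ^ 2 := Nat.pow_le_pow_left (by omega) 2
    have h2 : (2 ^ 2) ^ 2 ≤ (q ^ 2) ^ 2 := Nat.pow_le_pow_left (Nat.pow_le_pow_left hq 2) 2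
    rw [hF] at hc
    omega
  by_cases hk1 : k = 1
  · subst hk1
    intro x hx y hy
    have h1 : φ (⟨x, hx⟩ * ⟨y, hy⟩) = φ (⟨y, hy⟩ * ⟨x, hx⟩) := by
      rw [map_mul, map_mul]
      ext i j
      simp [Matrix.mul_apply, Subsingleton.elim i 0, Subsingleton.elim j 0, mul_comm]
    exact congrArg Subtype.val (φ.injective h1)
  exfalso
  let χ : Mt k K' →+* Mt n F := (cn ι).subtype.comp (φ.symm : Mt k K' →+* cn ι)
  have χinj : Function.Injective χ := Subtype.val_injective.comp φ.symm.injective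
  refine nq n F K ι true q p H Q A b kt hr (GU k K' q')
    ((Units.map (χ : Mt k K' →* Mt n F)).comp (GU k K' q').subtype)
    ((Units.map_injective χinj).comp Subtype.val_injective) ?_
    (qsu k K' q' hK' (by omega) (by omega) (by omega))
  intro x
  have hG : Gam n F true q = GU n F q := by simp [Gam]
  rw [hG, mem_GU hF]
  constructor
  · rintro ⟨y, rfl⟩
    have hy := (mem_GU hK' _).1 y.2
    obtain ⟨a, ha⟩ := φ.surjective (y.1 : Mt k K')
    have e : (((Units.map (χ : Mt k K' →* Mt n F)).comp (GU k K' q').subtype y : GL (Fin n) F) :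
        Mt n F) = a := by
      change ((φ.symm (y.1 : Mt k K') : cn ι) : Mt n F) = a
      rw [← ha, RingEquiv.symm_apply_apply]
    rw [e]
    refine ⟨?_, a.2⟩
    rw [← ha, ← hφ', ← map_mul, ← map_one φ] at hy
    exact congrArg Subtype.val (φ.injective hy)
  · rintro ⟨h1, h2⟩
    have e1 : ad q' (φ ⟨x, h2⟩) * φ ⟨x, h2⟩ = 1 := by
      rw [← hφ', ← map_mul, ← map_one φ]
      exact congrArg φ (Subtype.ext h1)
    refine ⟨⟨⟨φ ⟨x, h2⟩, ad q' (φ ⟨x, h2⟩), mul_eq_one_comm.1 e1, e1⟩, (mem_GU hK' _).2 e1⟩, ?_⟩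
    refine Units.ext ?_
    change ((φ.symm (φ ⟨x, h2⟩) : cn ι) : Mt n F) = x
    rw [RingEquiv.symm_apply_apply]

end H75.SimM2U
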