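import Cfsg.Agent.H53.SimXASpec

/-! Slot SIM-XA-FR (S3694). -/

set_option autoImplicit false

namespace H75.SimFR

open Subgroup Cfsg H98 Matrix H0.Sim H53.XA Module

theorem frame {n b : ℕ} {F : Type} [Field F] (f : Mt n F) (hf : f * f = f) (hb : f.rank = b)
    (e : Fin b → Fin n → F) (he : ∀ j, e j ∈ LinearMap.range f.mulVecLin)
    (li : LinearIndependent F e) :
    ∃ C : Matrix (Fin b) (Fin n) F, C * (Matrix.of e)ᵀ = 1 ∧ (Matrix.of e)ᵀ * C = f ∧
      f * (Matrix.of e)ᵀ = (Matrix.of e)ᵀ := by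
  have hsp : Submodule.span F (Set.range e) = LinearMap.range f.mulVecLin := by
    refine Submodule.eq_of_le_of_finrank_eq (Submodule.span_le.2 ?_) ?_
    · rintro _ ⟨j, rfl⟩
      exact he j
    · rw [finrank_span_eq_card li, Fintype.card_fin, ← hb]
      rfl
  have hcol : ∀ k : Fin n, ∃ c : Fin b → F, ∑ j, c j • e j = fun i => f i k := fun k => by
    refine (Submodule.mem_span_range_iff_exists_fun F).1 ?_
    rw [hsp]
    refine ⟨Pi.single k 1, ?_⟩
    ext i
    simp
  choose c hc using hcol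
  have h1 : (Matrix.of e)ᵀ * (Matrix.of c)ᵀ = f := by
    ext i k
    have := congrFun (hc k) i
    simp only [Finset.sum_apply, Pi.smul_apply, smul_eq_mul] at this
    simp only [mul_apply, transpose_apply, of_apply]
    rw [← this]
    exact Finset.sum_congr rfl fun j _ => mul_comm _ _
  have h2 : f * (Matrix.of e)ᵀ = (Matrix.of e)ᵀ := by
    ext i j
    obtain ⟨v, hv⟩ := he j
    have h3 : f *ᵥ e j = e j := by
      rw [← hv, mulVecLin_apply, mulVec_mulVec, hf]
    exact congrFun h3 i
  refine ⟨(Matrix.of c)ᵀ, ?_, h1, h2⟩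
  have h4 : (Matrix.of e)ᵀ * ((Matrix.of c)ᵀ * (Matrix.of e)ᵀ - 1) = 0 := by
    rw [Matrix.mul_sub, ← Matrix.mul_assoc, h1, h2, Matrix.mul_one, sub_self]
  rw [← sub_eq_zero]
  ext j k
  refine Fintype.linearIndependent_iff.1 li
    (fun j => ((Matrix.of c)ᵀ * (Matrix.of e)ᵀ - 1 : Matrix (Fin b) (Fin b) F) j k) ?_ j
  ext i
  have := congrFun (congrFun h4 i) k
  rw [mul_apply] at this
  simp only [Finset.sum_apply, Pi.smul_apply, smul_eq_mul, Pi.zero_apply]
  rw [← (this.trans rfl : _ = (0 : F))]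
  exact Finset.sum_congr rfl fun j _ => mul_comm _ _

theorem job : H53.XA.FR := by
  intro n F _ _ u q b f fq ip hb
  have hW : finrank F (LinearMap.range f.mulVecLin) = b := hb
  cases u
  · let B := Module.finBasisOfFinrankEq F _ hW
    obtain ⟨C, h1, h2, -⟩ := frame f ip.sq hb (fun j => (B j : Fin n → F)) (fun j => (B j).2)
      (B.linearIndependent.map' (Submodule.subtype _) (Submodule.ker_subtype _))
    exact ⟨_, C, h1, h2, fun h => absurd h (by simp)⟩
  · have hF : Fintype.card F = q ^ 2 := by simpa [Fq] using fq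
    have hH := H59.isHerm_stdForm (H59.frob_ne_id hF) (H59.frob_frob hF) (Fin n)
    have hf := ip.fx rfl
    have hfe : ∀ i k, H59.frob hF (f i k) = f k i := fun i k => congrFun (congrFun hf k) i
    have hadj : ∀ x y : Fin n → F, H59.stdForm (H59.frob hF) (Fin n) (f *ᵥ x) y =
        H59.stdForm (H59.frob hF) (Fin n) x (f *ᵥ y) := fun x y => by
      simp only [H59.stdForm_apply, mulVec, dotProduct, map_sum, map_mul, hfe, Finset.sum_mul,
        Finset.mul_sum]
      rw [Finset.sum_comm]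
      exact Finset.sum_congr rfl fun _ _ => Finset.sum_congr rfl fun _ _ => by ring
    have hd : Disjoint (LinearMap.range f.mulVecLin)
        (H59.perp (H59.stdForm (H59.frob hF) (Fin n)) (LinearMap.range f.mulVecLin)) := by
      rw [Submodule.disjoint_def]
      rintro _ ⟨v, rfl⟩ hv
      refine hH.nondeg' _ fun x => ?_
      have := H59.mem_perp.1 hv (f *ᵥ x) ⟨x, rfl⟩
      rw [hadj, mulVecLin_apply, mulVec_mulVec, ip.sq] at this
      exact this
    obtain ⟨e, he, ho⟩ := hH.exists_orthonormal_mem b hd hW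
    obtain ⟨C, h1, h2, h3⟩ := frame f ip.sq hb e he (hH.linearIndependent_of_orthonormal ho)
    have h4 : ad q (Matrix.of e)ᵀ * (Matrix.of e)ᵀ = 1 := by
      ext i j
      rw [one_apply, ← ho i j]
      rfl
    refine ⟨_, C, h1, h2, fun _ => ?_⟩
    have h5 : ad q (Matrix.of e)ᵀ * f = C := by
      rw [← h2, ← Matrix.mul_assoc, h4, Matrix.one_mul]
    rw [← h5, ← hf, ← ad_mul hF, h3]

end H75.SimFR
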