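/- CKS (S2193), slot A2: the support formula forces a fixed point of `U`. -/
import Cfsg.Agent.H9.CKASpec

set_option autoImplicit false
set_option linter.unusedVariables false

namespace H75.CKA2

open Finset MulAction

section gen
variable {p : ℕ} [hp : Fact p.Prime] {U : Type*} [Group U] [Finite U]

/-- a proper subgroup of a `p`-group is killed by a non-trivial linear character -/
theorem exists_lin (hU : IsPGroup p U) {A : Subgroup U} (hA : A ≠ ⊤) :
    ∃ lam : U →* ℂˣ, lam ≠ 1 ∧ ∀ x ∈ A, lam x = 1 := by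
  have := hU.isNilpotent
  obtain ⟨M, hM, hAM⟩ := (eq_top_or_exists_le_coatom A).resolve_left hA
  have := Subgroup.NormalizerCondition.normal_of_coatom M Group.normalizerCondition_of_isNilpotent hM
  have : Nontrivial (U ⧸ M) := QuotientGroup.nontrivial_iff.2 hM.1
  obtain ⟨y, -, hy⟩ := SetLike.exists_of_lt (Group.IsSolvable.commutator_lt_top_of_nontrivial (U ⧸ M))
  have h1 : Abelianization.of y ≠ 1 := fun h => hy ((QuotientGroup.eq_one_iff y).1 h)
  have : Finite (Abelianization (U ⧸ M)) := Quotient.finite _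
  obtain ⟨φ, hφ⟩ := CommGroup.exists_apply_ne_one_of_hasEnoughRootsOfUnity (Abelianization (U ⧸ M)) ℂ h1
  obtain ⟨x, rfl⟩ := QuotientGroup.mk_surjective y
  refine ⟨φ.comp (Abelianization.of.comp (QuotientGroup.mk' M)), fun h => hφ (DFunLike.congr_fun h x),
    fun a ha => ?_⟩
  simp [(QuotientGroup.eq_one_iff a).2 (hAM ha)]

theorem dvd_card (hU : IsPGroup p U) {H : Subgroup (U →* ℂˣ)} (hH : H ≠ ⊥) : p ∣ Nat.card H := by
  obtain ⟨k, hk⟩ := IsPGroup.iff_card.1 hU
  have : IsPGroup p (U →* ℂˣ) := fun lam => ⟨k, MonoidHom.ext fun x => by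
    rw [MonoidHom.pow_apply, ← map_pow, ← hk, pow_card_eq_one', map_one]; rfl⟩
  exact (this.to_subgroup H).card_eq_or_dvd.resolve_left fun h => hH (Subgroup.card_eq_one.1 h)

/-- the linear characters trivial on a set -/
def TT (A : Set U) : Subgroup (U →* ℂˣ) where
  carrier := {lam | ∀ x ∈ A, lam x = 1}
  one_mem' := fun _ _ => rfl
  mul_mem' := fun a b x hx => by rw [MonoidHom.mul_apply, a x hx, b x hx, one_mul]
  inv_mem' := fun a x hx => by rw [MonoidHom.inv_apply, a x hx, inv_one]

theorem dvd_TT (hU : IsPGroup p U) {A : Subgroup U} (hA : A ≠ ⊤) {B : Set U} (h : B ⊆ A) :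
    p ∣ Nat.card (TT B) := by
  obtain ⟨lam, h1, h2⟩ := exists_lin hU hA
  exact dvd_card hU fun e => h1 ((Subgroup.eq_bot_iff_forall _).1 e lam fun x hx => h2 x (h hx))

variable {Ω : Type*} [Fintype Ω] [MulAction U Ω]

theorem orb_sum (f : Ω → ℕ) (hf : ∀ (u : U) a, f (u • a) = f a) (h : ∀ a, p ∣ f a) :
    p * Nat.card U ∣ ∑ a, Nat.card (stabilizer U a) * f a := by
  classical
  rw [← Finset.sum_fiberwise univ (Quotient.mk (orbitRel U Ω))]
  refine Finset.dvd_sum fun q _ => ?_
  obtain ⟨b, rfl⟩ := Quotient.exists_rep q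
  have e : ∀ a ∈ univ.filter fun a => Quotient.mk (orbitRel U Ω) a = Quotient.mk (orbitRel U Ω) b,
      Nat.card (stabilizer U a) * f a = Nat.card (stabilizer U b) * f b := fun a ha => by
    obtain ⟨u, rfl⟩ : a ∈ orbit U b := Quotient.exact (mem_filter.1 ha).2
    rw [hf, Nat.card_congr (stabilizerEquivStabilizer (g := u) (a := b) rfl).symm.toEquiv]
  have c : (univ.filter fun a => Quotient.mk (orbitRel U Ω) a = Quotient.mk (orbitRel U Ω) b).card =
      Nat.card (orbit U b) := by
    rw [← Nat.card_eq_finsetCard]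
    exact Nat.card_congr (Equiv.subtypeEquivRight fun a => by
      rw [mem_filter]; exact ⟨fun k => Quotient.exact k.2, fun k => ⟨mem_univ _, Quotient.sound k⟩⟩)
  rw [sum_congr rfl e, sum_const, c, smul_eq_mul, ← mul_assoc, ← Nat.card_prod,
    Nat.card_congr (orbitProdStabilizerEquivGroup U b), mul_comm p]
  exact Nat.mul_dvd_mul_left _ (h b)

theorem sum_fix [Fintype U] [Fintype (U →* ℂˣ)] :
    ∑ lam : U →* ℂˣ, ∑ u : U, (Nat.card (fixedBy Ω u) : ℂ) * (lam u : ℂ) =
      ((∑ a : Ω, Nat.card (stabilizer U a) * Nat.card (TT (stabilizer U a : Set U)) : ℕ) : ℂ) := by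
  classical
  have e : ∀ u : U, (Nat.card (fixedBy Ω u) : ℂ) = ∑ a : Ω, if u • a = a then 1 else 0 := fun u => by
    rw [sum_boole, ← Nat.card_eq_finsetCard]
    exact congrArg _ (Nat.card_congr (Equiv.subtypeEquivRight fun a => by simp))
  simp only [e, sum_mul, ite_mul, one_mul, zero_mul]
  rw [sum_congr rfl fun lam _ => sum_comm, sum_comm]
  push_cast
  refine sum_congr rfl fun a _ => ?_
  have k : ∀ lam : U →* ℂˣ, ∑ u : U, (if u • a = a then (lam u : ℂ) else 0) =
      if lam ∈ TT (stabilizer U a : Set U) then (Nat.card (stabilizer U a) : ℂ) else 0 := fun lam => by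
    have := sum_hom_units ((Units.coeHom ℂ).comp (lam.comp (stabilizer U a).subtype))
    rw [← sum_filter, sum_subtype (p := fun u => u ∈ stabilizer U a) _ (by simp) (fun u => (lam u : ℂ))]
    refine Eq.trans this ?_
    rw [Nat.card_eq_fintype_card]
    push_cast
    refine if_congr ⟨fun h x hx => Units.ext (DFunLike.congr_fun h (⟨x, hx⟩ : stabilizer U a) :), fun h => MonoidHom.ext fun x => ?_⟩
      rfl rfl
    exact congrArg Units.val (h x x.2)
  rw [sum_congr rfl fun lam _ => k lam, ← sum_filter, sum_const, nsmul_eq_mul, mul_comm,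
    ← Nat.card_eq_finsetCard]
  exact congrArg _ (congrArg _ (Nat.card_congr (Equiv.subtypeEquivRight fun a => by simp)))

/-- the alternating count -/
theorem alt {Λ S : Type*} [Fintype Λ] [Fintype S] [DecidableEq S] {R : Type*} [CommRing R]
    (J : Λ → Finset S) (m : Finset S → R)
    (h : ∀ K : Finset S, ((univ.filter fun l => Disjoint K (J l)).card : R) = if K = univ then 1 else 0) :
    ∑ l : Λ, ∑ I ∈ (J l).powerset, (-1) ^ I.card * m I = m univ := by
  have k : ∀ (l : Λ) (I : Finset S), ∑ K ∈ I.powerset, (-1) ^ K.card * (if Disjoint K (J l) then (1 : R) else 0) =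
      if I ∈ (J l).powerset then 1 else 0 := fun l I => by
    have := prod_one_add (f := fun s => -(if s ∉ J l then (1 : R) else 0)) I
    rw [prod_congr rfl (g := fun s => if s ∈ J l then 1 else 0) fun s _ => by split_ifs <;> simp_all,
      prod_boole] at this
    refine Eq.trans (sum_congr rfl fun K _ => ?_) (this.symm.trans (by simp [subset_iff]))
    rw [prod_neg, prod_boole]
    simp only [disjoint_left]; congr
  have e : ∀ l : Λ, ∑ I ∈ (J l).powerset, (-1) ^ I.card * m I =
      ∑ I : Finset S, (-1) ^ I.card * m I * ∑ K ∈ I.powerset, (-1) ^ K.card *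
        (if Disjoint K (J l) then (1 : R) else 0) := fun l => by
    simp only [k]
    simp only [mul_ite, mul_one, mul_zero]
    rw [← sum_filter]
    exact sum_congr (by ext; simp) fun _ _ => rfl
  rw [sum_congr rfl fun l _ => e l, sum_comm]
  simp only [← mul_sum]
  rw [sum_congr rfl fun I _ => congrArg _ sum_comm]
  simp only [← mul_sum, sum_boole, h]
  simp only [mul_ite, mul_one, mul_zero, sum_ite_eq', mem_powerset, univ_subset_iff, mem_univ, if_true]
  rw [mul_right_comm, ← mul_pow]; simp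

end gen

theorem jobA2 : H9.CK.JobA2 := by
  intro p hp G Ω _ _ _ _ D _ m hm hC hF
  classical
  by_contra! hn
  have := Fintype.ofFinite Ω
  have := Fintype.ofFinite D.U
  have := Fintype.ofFinite (D.U →* ℂˣ)
  let t : (D.U →* ℂˣ) → D.P.S → Prop := fun lam s => ∀ x : D.U, x.1 ∈ D.X s → lam x = 1
  have h1 := sum_fix (U := D.U) (Ω := Ω)
  obtain ⟨c, hc⟩ := orb_sum (p := p) (U := D.U) (fun a : Ω => Nat.card (TT (stabilizer D.U a : Set D.U)))
    (fun u a => by
      congr 2
      ext lam
      refine ⟨fun h x hx => ?_, fun h x hx => ?_⟩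
      · have := h (u * x * u⁻¹) (by
          rw [SetLike.mem_coe, mem_stabilizer_iff, mul_smul, mul_smul, inv_smul_smul, mem_stabilizer_iff.1 hx])
        simpa using this
      · have := h (u⁻¹ * x * u) (by
          rw [SetLike.mem_coe, mem_stabilizer_iff, mul_smul, mul_smul, mem_stabilizer_iff.1 hx, inv_smul_smul])
        simpa using this)
    (fun a => dvd_TT D.isP (A := stabilizer D.U a) (fun e => by
      obtain ⟨u, hu, k⟩ := hn a
      exact k (show (⟨u, hu⟩ : D.U) ∈ stabilizer D.U a from e ▸ Subgroup.mem_top _)) subset_rfl)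
  have h2 : ∀ lam : D.U →* ℂˣ, ∑ u : D.U, (Nat.card (fixedBy Ω u) : ℂ) * (lam u : ℂ) = Nat.card D.U *
      ((∑ I ∈ (univ.filter fun s => ¬ t lam s).powerset, (-1) ^ I.card * m I : ℤ) : ℂ) := fun lam => by
    rw [← hF (univ.filter fun s => ¬ t lam s) lam (hC _ lam fun s hs =>
      not_not.1 fun k => hs (mem_coe.2 (mem_filter.2 ⟨mem_univ _, k⟩))) fun s hs => by
      simpa [t] using hs, finsum_eq_sum_of_fintype]
    rfl
  rw [sum_congr rfl fun lam _ => h2 lam, ← mul_sum, hc, mul_comm p, mul_assoc, Nat.cast_mul,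
    mul_right_inj' (Nat.cast_ne_zero.2 Nat.card_pos.ne'), ← Int.cast_sum, ← Int.cast_natCast, Int.cast_inj] at h1
  have h3 := congrArg (Int.cast : ℤ → ZMod p) h1
  push_cast at h3
  rw [alt (fun l => univ.filter fun s => ¬ t l s) (fun I => (m I : ZMod p)) fun K => ?_, hm] at h3
  · simp at h3
  have e : (univ.filter fun l => Disjoint K (univ.filter fun s => ¬ t l s)).card =
      Nat.card (TT {x : D.U | ∃ s ∈ K, x.1 ∈ D.X s}) := by
    rw [← Nat.card_eq_finsetCard]
    exact Nat.card_congr (Equiv.subtypeEquivRight fun l => by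
      simp only [mem_filter, disjoint_left, mem_univ, true_and, not_not]
      exact ⟨fun k x ⟨s, hs, hx⟩ => k hs x hx, fun k s hs x hx => k x ⟨s, hs, hx⟩⟩)
  rw [e]
  split_ifs with hK
  · rw [Subgroup.card_eq_one.2, Nat.cast_one]
    exact (Subgroup.eq_bot_iff_forall _).2 fun lam hl => MonoidHom.ext fun x =>
      hC ∅ lam (fun s _ y hy => hl y ⟨s, hK ▸ mem_univ _, hy⟩) x (by rw [D.R_empty]; exact x.2)
  · obtain ⟨s, hs⟩ : ∃ s, s ∉ K := by simpa [eq_univ_iff_forall] using hK
    refine (ZMod.natCast_eq_zero_iff _ _).2 (dvd_TT D.isP (A := (D.R {s}).subgroupOf D.U) (fun k => ?_) ?_)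
    · obtain ⟨x, hx, x1⟩ := D.exists_mem_X_ne_one s
      exact x1 (D.eq_one_of_mem_X_of_mem_R hx
        (show (⟨x, D.X_le_U s hx⟩ : D.U) ∈ (D.R {s}).subgroupOf D.U from k ▸ Subgroup.mem_top _))
    · rintro x ⟨r, hr, hx⟩
      exact D.X_le_R (J := {s}) (fun k => hs (k ▸ hr)) hx

end H75.CKA2
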