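/- CKS (S2193), slot P0: degree prime to `p`. -/
import Cfsg.Agent.H9.CKASpec
import Cfsg.Agent.H32.CKKit

set_option autoImplicit false
set_option linter.unusedVariables false

namespace H75.CKP0

open MulAction H54 H64 H32.CK H9.CK

/-- the double coset `P_J n_i P_J` lies in the cells of `W_J s_i W_J` -/
theorem cell_dc {Φ ι G : Type*} [Finite Φ] {R : WData Φ ι} [Group G] (T : GRD R G) (J : Set ι) (i : ι) {x y : G}
    (hx : x ∈ T.PJ J) (hy : y ∈ T.PJ J) :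
    ∃ u ∈ R.WJ J, ∃ v ∈ R.WJ J, T.Cell (u * R.sW i * v) (x * T.n i * y) := by
  let S : G → Prop := fun g => ∃ u ∈ R.WJ J, ∃ v ∈ R.WJ J, T.Cell (u * R.sW i * v) g
  let K : Subgroup G :=
    { carrier := {x | ∀ g, S g → S (x * g) ∧ S (x⁻¹ * g)}
      one_mem' := fun g hg => by simpa using hg
      mul_mem' := fun {a b} ha hb g hg =>
        ⟨mul_assoc a b g ▸ (ha _ (hb g hg).1).1, by rw [mul_inv_rev, mul_assoc]; exact (hb _ (ha g hg).2).2⟩
      inv_mem' := fun {a} ha g hg => ⟨(ha g hg).2, by rw [inv_inv]; exact (ha g hg).1⟩ }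
  have hK : T.PJ J ≤ K := by
    refine sup_le (fun b hb g ⟨u, hu, v, hv, c⟩ =>
      ⟨⟨u, hu, v, hv, c.mul_left hb⟩, u, hu, v, hv, c.mul_left (inv_mem hb)⟩) ((Subgroup.closure_le _).2 ?_)
    rintro _ ⟨j, hj, rfl⟩ g ⟨u, hu, v, hv, c⟩
    have k : ∀ g', T.Cell (R.sW j * (u * R.sW i * v)) g' ∨ T.Cell (u * R.sW i * v) g' → S g' := by
      rintro g' (c | c)
      · exact ⟨R.sW j * u, mul_mem (R.sW_mem_WJ hj) hu, v, hv, by simpa only [mul_assoc] using c⟩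
      · exact ⟨u, hu, v, hv, c⟩
    exact ⟨k _ (c.n_mul j), k _ (c.n_inv_mul j)⟩
  have inv : ∀ g, S g → S g⁻¹ := fun g ⟨u, hu, v, hv, c⟩ =>
    ⟨v⁻¹, inv_mem hv, u⁻¹, inv_mem hu, by simpa only [mul_inv_rev, R.sW_inv, mul_assoc] using c.inv⟩
  have h1 : S (T.n i) := ⟨1, one_mem _, 1, one_mem _, by simpa using (T.act_n i).cell (T.n_mem_N i)⟩
  have := inv _ (hK hy _ (inv _ (hK hx _ h1).1)).2
  rwa [mul_inv_rev, inv_inv, inv_inv] at this

theorem jobP0 : JobP0 := by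
  intro p hp G Ω _ _ _ _ Λ hne h hd
  have := h.simple
  obtain ⟨a, ha⟩ := Λ.pU.nonempty_fixed_point_of_prime_not_dvd_card Ω hd
  have hU : Λ.T.U ≤ stabilizer G a := fun u hu => ha ⟨u, hu⟩
  have h2 := Λ.T.le_PJ_of_U_le hU (Λ.top ▸ le_top)
  obtain ⟨i, hi⟩ : ∃ i, ¬ Λ.T.X (Λ.R.neg (Λ.R.p i)) ≤ stabilizer G a := by
    by_contra! hc
    exact h.ne_top a (eq_top_iff.2 ((Λ.T.gen_univ_eq_top Λ.top).ge.trans (Λ.T.gen_univ_le
      (fun i => (Λ.T.X_le_U (Λ.R.pos_p i)).trans hU) hc)))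
  have hn : Λ.T.n i ∉ Λ.T.PJ {i}ᶜ := fun k => Λ.T.n_mem_PJ_iff.1 k rfl
  have e : stabilizer G a = Λ.T.PJ {i}ᶜ := by
    have h3 : Λ.T.PJ {i}ᶜ ≠ ⊤ := fun k => hn (by rw [k]; trivial)
    have h4 : {j | Λ.T.X (Λ.R.neg (Λ.R.p j)) ≤ stabilizer G a} ⊆ {i}ᶜ := by
      rintro j hj rfl
      exact hi hj
    exact (((h.coatom a).le_iff_eq h3).1 (h2.trans
      (sup_le_sup_left (Subgroup.closure_mono (Set.image_mono h4)) _))).symm
  have hna : a ≠ Λ.T.n i • a := fun k => hn (by rw [← e]; exact k.symm)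
  refine ⟨i, a, e, fun w hw => ?_, fun hs => ?_⟩
  · obtain ⟨m, hm, hmw⟩ := Λ.T.exists_mem_N_act w
    have hc := hmw.cell hm
    obtain ⟨g, h3, h4⟩ := h.ex hna (c := a) (d := m • a) fun k => by
      obtain ⟨v, hv, c⟩ := Λ.T.mem_PJ_iff.1 (show m ∈ Λ.T.PJ {i}ᶜ by rw [← e]; exact k.symm)
      exact hw (c.unique hc ▸ hv)
    obtain ⟨u, hu, v, hv, c⟩ := cell_dc Λ.T {i}ᶜ i (x := g) (y := (g * Λ.T.n i)⁻¹ * m) (by rw [← e]; exact h3)
      (by rw [← e, mem_stabilizer_iff, mul_smul, inv_smul_eq_iff, mul_smul, h4])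
    rw [mul_inv_cancel_left] at c
    exact ⟨u, hu, v, hv, hc.unique c⟩
  · rw [show ({i}ᶜ : Set Λ.ι) = ∅ from Set.eq_empty_of_forall_notMem fun j k => k (Subsingleton.elim j i),
      Λ.T.PJ_empty] at e
    let f : Λ.T.U → {b : Ω // b ≠ a} := fun u => ⟨u.1 • Λ.T.n i • a, fun k => hna (by
      rw [← inv_smul_eq_iff.2 k.symm]; exact (hU (inv_mem u.2)).symm)⟩
    have hf : Function.Bijective f := by
      refine ⟨fun u v k => ?_, fun ⟨b, hb⟩ => ?_⟩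
      · have k' : u.1 • Λ.T.n i • a = v.1 • Λ.T.n i • a := congrArg Subtype.val k
        have a1 : (Λ.T.n i)⁻¹ * (v.1⁻¹ * u.1) * (Λ.T.n i)⁻¹⁻¹ ∈ Λ.T.B := by
          rw [← e, mem_stabilizer_iff, inv_inv, mul_smul, mul_smul, mul_smul, k', inv_smul_smul, inv_smul_smul]
        have a2 := Λ.T.eq_one_of_mem_B_V a1 ((Λ.T.act_n i).inv.conj_gen (S := {r | Λ.R.pos r})
          (fun r hr => Λ.R.negall _ (Λ.R.sW i)⁻¹.2 (fun j => by
            rw [Λ.R.sW_inv, Subsingleton.elim j i, Λ.R.sW_val, Λ.R.s_p]; exact Λ.R.not_pos_neg_p i) r hr)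
          (mul_mem (inv_mem v.2) u.2))
        rw [conj_eq_one_iff, inv_mul_eq_one] at a2
        exact Subtype.ext a2.symm
      · obtain ⟨g, h3, h4⟩ := h.ex hna (c := a) (d := b) hb.symm
        obtain ⟨u, hu, t, ht, rfl⟩ := Λ.T.mem_B.1 (show g ∈ Λ.T.B by rw [← e]; exact h3)
        have a1 : ((Λ.T.n i)⁻¹ * t * Λ.T.n i) • a = a := by
          rw [← mem_stabilizer_iff, e]; exact Λ.T.H_le_B (Λ.T.n_inv_H i ht)
        refine ⟨⟨u, hu⟩, Subtype.ext ?_⟩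
        rw [mul_smul, mul_smul, inv_smul_eq_iff] at a1
        exact (congrArg (u • ·) a1.symm).trans ((mul_smul _ _ _).symm.trans h4)
    classical
    rw [Nat.card_eq_of_bijective f hf, ← Finite.card_option]
    exact (Nat.card_congr (Equiv.optionSubtypeNe a)).symm

end H75.CKP0
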