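/- CKS (S2193), slots TCh and TTw: three double cosets in the exceptional groups. -/
import Cfsg.Agent.H9.CKASpec

set_option autoImplicit false
set_option linter.unusedVariables false

namespace H75.CKT

open Cfsg Cfsg.Lie H54 H64 H68 H63 H9.CK

section gen
variable {R ι : Type} [Fintype R] [DecidableEq R] [Fintype ι] [DecidableEq ι] {D : RD R ι}

/-- the longest element makes all coefficients of a root of full support negative -/
theorem co_w0_neg {a : R} (ha : ∀ k, 0 < D.co a k) (i : ι) : D.co (D.w0 Set.univ a) i < 0 := by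
  have hw := RD.w0_mem_W (D := D) Set.univ
  have h1 : ∀ k, D.co (D.w0 Set.univ (D.sim k)) i ≤ 0 := fun k =>
    RD.not_pos_iff.1 (RD.w0_sim (Set.mem_univ k)) i
  obtain ⟨k, hk⟩ : ∃ k, D.co (D.w0 Set.univ (D.sim k)) i ≠ 0 := by
    by_contra! c
    have := RD.co_apply hw (D.w0 Set.univ (D.sim i)) i
    simp [c, D.co_sim] at this
  rw [RD.co_apply hw, ← Finset.sum_const_zero (s := Finset.univ (α := ι))]
  exact Finset.sum_lt_sum (fun j _ => mul_nonpos_of_nonneg_of_nonpos (ha j).le (h1 j))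
    ⟨k, Finset.mem_univ k, mul_neg_of_pos_of_neg (ha k) (lt_of_le_of_ne (h1 k) hk)⟩

theorem not_two {a b : R} (hab : a ≠ b) (ha : ∀ k, 0 < D.co a k) (hb : ∀ k, 0 < D.co b k) (i : ι) :
    ¬ TwoAt D.toW i :=
  not_twoAt (fun r => D.co r i) (fun j hj r => (D.co_s j r i).trans (by rw [if_neg hj.symm, sub_zero]))
    (fun r hr => hr i) (fun r => D.co_neg r i) ⟨D.w0 Set.univ, D.toW_W ▸ RD.w0_mem_W _⟩ hab (ha i) (hb i)
    (co_w0_neg ha i) (co_w0_neg hb i)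

variable {Ω : Type} (τ : Tw D Ω)

/-- every positive root lies in a relative root -/
theorem exists_rel {r : R} (hr : D.pos r) : ∃ A : τ.Rel, r ∈ A.1 := by
  have key : ∀ w ∈ τ.WI Set.univ, ∀ r, D.pos r → ¬ D.pos (w r) → ∃ A : τ.Rel, r ∈ A.1 := fun w hw => by
    refine Tw.WI_induction (p := fun w => ∀ r, D.pos r → ¬ D.pos (w r) → ∃ A : τ.Rel, r ∈ A.1)
      (fun r h1 h2 => absurd h1 h2) (fun w _ o _ _ ih r h1 h2 => ?_) hw
    by_cases h : D.pos (τ.wo o r)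
    · obtain ⟨A, hA⟩ := ih _ h h2
      refine ⟨τ.act (τ.gen o) A, ?_⟩
      have := τ.mem_act_gen o hA
      rwa [← Equiv.Perm.mul_apply, Tw.wo_mul_wo] at this
    · exact ⟨τ.sim o, Tw.mem_PS.2 ⟨h1, h⟩⟩
  exact key _ (Tw.w0_mem_WI Set.univ) r hr fun h => (RD.pos_w0 (RD.inJ_univ r)).1 h hr

theorem not_two_tw {a b : R} (ha : ∀ k, 0 < D.co a k) (hb : ∀ k, 0 < D.co b k) {v : Equiv.Perm R}
    (hv : v ∈ τ.Wf) (h1 : D.pos (v a)) (h2 : ¬ D.pos (v b)) (o : Ω) : ¬ TwoAt τ.wdata o := by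
  classical
  obtain ⟨i, rfl⟩ := τ.orb_surj o
  obtain ⟨A, hA⟩ := exists_rel τ (r := a) fun k => (ha k).le
  obtain ⟨B, hB⟩ := exists_rel τ (r := b) fun k => (hb k).le
  let ω : τ.Rel → ℤ := fun A => ∑ r ∈ A.1.toFinset, D.co r i
  have im : ∀ (f : R → R) (A B : τ.Rel), Function.Injective f → B.1 = f '' A.1 →
      ω B = ∑ r ∈ A.1.toFinset, D.co (f r) i := fun f A B hf e => by
    have : B.1.toFinset = A.1.toFinset.image f := by ext; simp [e]
    simp only [ω, this, Finset.sum_image hf.injOn]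
  let w : τ.Wf := ⟨_, Tw.w0_mem_WI Set.univ⟩
  have p1 : ∀ (c : R) (C : τ.Rel), (∀ k, 0 < D.co c k) → c ∈ C.1 → 0 < ω C ∧ ω (τ.act w C) < 0 :=
    fun c C hc hC => by
    have hp := (C.pos_iff hC).2 fun k => (hc k).le
    refine ⟨Finset.sum_pos' (fun r hr => hp r (Set.mem_toFinset.1 hr) i) ⟨c, Set.mem_toFinset.2 hC, hc i⟩, ?_⟩
    rw [im w.1 C _ w.1.injective rfl]
    exact Finset.sum_neg' (fun r hr => RD.not_pos_iff.1 (fun k => (RD.pos_w0 (RD.inJ_univ r)).1 k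
      (hp r (Set.mem_toFinset.1 hr))) i) ⟨c, Set.mem_toFinset.2 hC, co_w0_neg hc i⟩
  refine not_twoAt ω (fun j hj C => ?_) (fun C hC => Finset.sum_nonneg fun r hr => hC r (Set.mem_toFinset.1 hr) i)
    (fun C => ?_) ⟨τ.act w, Tw.act_mem_W w⟩ (a := A) (b := B) ?_ (p1 a A ha hA).1 (p1 b B hb hB).1
    (p1 a A ha hA).2 (p1 b B hb hB).2
  · rw [im (τ.wo j) C (τ.wdata.s j C) (τ.wo j).injective (τ.act_gen_val j C)]
    exact Finset.sum_congr rfl fun r _ => RD.co_apply_of_notMem (RD.w0_mem _) (fun k => hj k.symm) r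
  · rw [im D.neg C (τ.wdata.neg C) (fun _ _ => RD.neg_inj) rfl, ← Finset.sum_neg_distrib]
    exact Finset.sum_congr rfl fun r _ => D.co_neg r i
  · rintro rfl
    exact h2 ((Tw.Rel.pos_iff _ (τ.mem_act ⟨v, hv⟩ hA)).2 h1 _ (τ.mem_act ⟨v, hv⟩ hB))

end gen

theorem hasT_chev (D : ChevalleyDatum) [RS D] [H65.Tab D] [H65.Comm D] (F : Type) [Field F] [Fintype F] (p : ℕ)
    [Fact p.Prime] [CharP F p] (a b : Rt D) (hab : a ≠ b) (ha : ∀ k, 0 < rt a k) (hb : ∀ k, 0 < rt b k) :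
    HasT p (D.group F) :=
  ⟨lieChev D F p, H64.nonempty_rank (D := D), not_two (D := rd D) hab ha hb⟩

theorem jobTCh : JobTCh := fun p _ F _ _ _ =>
  have := H65.tabE7
  have := H65.commE7
  have := H65.tabE8
  have := H65.commE8
  ⟨hasT_chev _ F p ⟨11, by decide⟩ ⟨10, by decide⟩ (by decide) (by simp only [rt_G2]; decide +kernel)
      (by simp only [rt_G2]; decide +kernel),
    hasT_chev _ F p ⟨47, by decide⟩ ⟨46, by decide⟩ (by decide) (by simp only [rt_F4]; decide +kernel)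
      (by simp only [rt_F4]; decide +kernel),
    hasT_chev _ F p ⟨71, by decide⟩ ⟨70, by decide⟩ (by decide) (by simp only [rt_E6]; decide +kernel)
      (by simp only [rt_E6]; decide +kernel),
    hasT_chev _ F p ⟨125, by decide⟩ ⟨124, by decide⟩ (by decide) (by simp only [rt_E7]; decide +kernel)
      (by simp only [rt_E7]; decide +kernel),
    hasT_chev _ F p ⟨239, by decide⟩ ⟨238, by decide⟩ (by decide) (by simp only [rt_E8]; decide +kernel)
      (by simp only [rt_E8]; decide +kernel)⟩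

theorem not_two_wP {D : ChevalleyDatum} [RS D] {Ω : Type} (τ : Tw (rd D) Ω) (a b : Rt D) (l : List ℕ)
    (ha : ∀ k, 0 < rt a k) (hb : ∀ k, 0 < rt b k) (hv : wP D l ∈ τ.Wf) (h1 : D.IsPosRoot (fN D l a))
    (h2 : D.IsNegRoot (fN D l b)) (o : Ω) : ¬ TwoAt τ.wdata o :=
  not_two_tw τ ha hb hv (by rwa [rd_pos, wP_val]) (by rwa [rd_not_pos, wP_val]) o

theorem ntD4 (o : Fin 2) : ¬ TwoAt twD4.wdata o :=
  not_two_wP twD4 ⟨23, by decide⟩ ⟨22, by decide⟩ ([1] ++ [0, 2, 3]) (by simp only [rt_D4]; decide +kernel)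
    (by simp only [rt_D4]; decide +kernel)
    (by rw [wP_append, ← wo0_D4, ← wo1_D4]; exact mul_mem (Tw.wo_mem_Wf _) (Tw.wo_mem_Wf _))
    (by decide +kernel) (by decide +kernel) o

theorem ntF4 (o : Fin 2) : ¬ TwoAt twF4.wdata o :=
  not_two_wP twF4 ⟨47, by decide⟩ ⟨46, by decide⟩ ([1, 2, 1, 2] ++ ([0, 3] ++ [1, 2, 1, 2]))
    (by simp only [rt_F4]; decide +kernel) (by simp only [rt_F4]; decide +kernel)
    (by rw [wP_append, wP_append, ← wo0_F4, ← wo1_F4]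
        exact mul_mem (Tw.wo_mem_Wf _) (mul_mem (Tw.wo_mem_Wf _) (Tw.wo_mem_Wf _)))
    (by decide +kernel) (by decide +kernel) o

theorem ntE6 (o : Fin 4) : ¬ TwoAt twE6.wdata o :=
  have k : ∀ o : Fin 4, wP chevE6 (woE6 o) ∈ twE6.Wf := fun o => wo_E6 o ▸ Tw.wo_mem_Wf o
  not_two_wP twE6 ⟨71, by decide⟩ ⟨70, by decide⟩
    ([3] ++ ([2, 4] ++ ([0, 5] ++ ([1] ++ ([3] ++ ([2, 4] ++ [3]))))))
    (by simp only [rt_E6]; decide +kernel) (by simp only [rt_E6]; decide +kernel)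
    (by simp only [wP_append]
        exact mul_mem (k 1) (mul_mem (k 2) (mul_mem (k 3) (mul_mem (k 0) (mul_mem (k 1) (mul_mem (k 2) (k 1)))))))
    (by decide +kernel) (by decide +kernel) o

theorem jobTTw : JobTTw := fun p _ K _ _ hc =>
  ⟨fun q hq hK => ⟨(isTw_E6 hq hK).lieS p, ⟨(0 : Fin 4)⟩, ntE6⟩,
    fun q hq hK => ⟨(isTw_D4 hq hK).lieS p, ⟨(0 : Fin 2)⟩, ntD4⟩,
    fun m hK => by
      obtain rfl : p = 2 := CharP.eq K hc (H68.charP_two hK)
      exact ⟨(isTw_F4 hK).lieS 2, ⟨(0 : Fin 2)⟩, ntF4⟩⟩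

end H75.CKT
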