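import Cfsg.Agent.H40.CSSpec

/-! Slot CS-V (S4161). -/

set_option autoImplicit false

namespace H75.CsV

open Cfsg Subgroup H40.CS

universe u

theorem rel_dvd {G : Type u} [Group G] [Finite G] (I N : Subgroup G) [N.Normal] :
    I.relIndex N ∣ I.index := by
  have idx : I.relIndex N * N.index = N.relIndex I * I.index := by
    rw [← Subgroup.inf_relIndex_right I N, ← Subgroup.inf_relIndex_left I N,
      Subgroup.relIndex_mul_index inf_le_right, Subgroup.relIndex_mul_index inf_le_left]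
  obtain ⟨c, hc⟩ := Subgroup.relIndex_dvd_index_of_normal N I
  refine ⟨c, Nat.eq_of_mul_eq_mul_left (Nat.pos_of_ne_zero
    (show N.relIndex I ≠ 0 from (N.subgroupOf I).index_ne_zero_of_finite)) ?_⟩
  rw [← idx, hc]
  ring

theorem job : H40.CS.JobV.{u} := by
  intro cu G _ _ p q h U hU hUt hq
  obtain ⟨_, ⟨n, rfl⟩, hmin⟩ :=
    (wellFounded_lt (α := Subgroup G)).has_min (Set.range (derivedSeries G)) ⟨_, 0, rfl⟩
  have hle : ∀ m, derivedSeries G n ≤ derivedSeries G m := fun m => by
    have h1 : derivedSeries G (n + m) ≤ derivedSeries G n := derivedSeries_antitone G (by omega)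
    have h2 : derivedSeries G (n + m) = derivedSeries G n :=
      h1.eq_of_not_lt (hmin _ ⟨_, rfl⟩)
    exact h2 ▸ derivedSeries_antitone G (by omega)
  have hJ := derivedSeries_normal G n
  have hnab : ¬ derivedSeries G n ≤ centralizer (derivedSeries G n : Set G) := fun hh =>
    h.ns ⟨n + 1, by rw [derivedSeries_succ, commutator_eq_bot_iff_le_centralizer.2 hh]⟩
  obtain ⟨x, hx, hxJ⟩ : ∃ x : G, p ∣ cs x ∧ x ∉ centralizer (derivedSeries G n : Set G) := by
    by_contra hh
    push Not at hh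
    obtain ⟨j, hj, hj'⟩ := SetLike.not_le_iff_exists.1 hnab
    obtain ⟨x0, hx0⟩ := h.exX
    exact (cu G p h.hp (centralizer (derivedSeries G n : Set G)) inferInstance
      (fun e => hnab (e ▸ le_top)) fun g hg hd => hg (hh g hd)).2 j hj' x0
      (mem_centralizer_iff.1 (hh x0 hx0) j hj) hx0
  have hne : (centralizer ({x} : Set G)).relIndex (derivedSeries G n) ≠ 1 := fun e =>
    hxJ (mem_centralizer_iff.2 fun j hj =>
      (mem_centralizer_iff.1 (relIndex_eq_one.1 e hj) x rfl).symm)
  obtain ⟨s, hs, hsd⟩ := Nat.exists_prime_and_dvd hne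
  have := Fact.mk hs
  have hsx : s ∣ cs x := hsd.trans (rel_dvd _ _)
  have hsJ : s ∣ Nat.card (derivedSeries G n) := hsd.trans (relIndex_dvd_card _ _)
  obtain ⟨⟨P, K, hK, hc⟩, -⟩ := cu G s hs U hU hUt fun g hg hd =>
    hs.one_lt.ne' (Nat.eq_one_of_dvd_coprimes (h.cop x g hx (hq g hg)) hsx hd)
  obtain ⟨k, hk⟩ := P.isPGroup'.exists_card_eq
  have hp : IsPGroup s (G ⧸ K) := IsPGroup.of_card (n := k) (by
    rw [← hk, ← hc.symm.index_eq_card]
    rfl)
  have := hp.isNilpotent
  obtain ⟨m, hm⟩ : Group.IsSolvable (G ⧸ K) := inferInstance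
  have hJK : derivedSeries G n ≤ K := by
    refine (hle m).trans ?_
    have h3 := map_derivedSeries_le_derivedSeries (QuotientGroup.mk' K) m
    rwa [hm, le_bot_iff, Subgroup.map_eq_bot_iff, QuotientGroup.ker_mk'] at h3
  exact P.not_dvd_index (hc.index_eq_card ▸ hsJ.trans (card_dvd_of_le hJK))

end H75.CsV
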