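/- The monomial Sylow `2`-subgroup of the Weyl group of type `E8`. -/
import Cfsg.Agent.H11.E8Spec

set_option autoImplicit false
open H11.E8 Matrix

namespace H75.E8S

/-- composition of codes -/
def cmp (b c : ℕ) : ℕ := H72.orN (fun i => Nat.shiftLeft (ap b (ap c i)) (Nat.mul 3 i)) 8
theorem t1 : ∀ b ∈ T64, ∀ c ∈ T64, cmp b c ∈ T64 ∧ ∀ i < 8, ap (cmp b c) i = ap b (ap c i) := by decide +kernel
theorem t2 : ∀ b ∈ T64, ∃ d ∈ T64, ∀ i < 8, ap idA i = ap d (ap b i) := by decide +kernel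
theorem t3 (b : ℕ) (hb : b ∈ T64) (c : ℕ) (hc : c ∈ T64) (h : ∀ i < 8, ap c i = ap b i) : b = c := by
  have k : ∀ b ∈ T64, b = ap b 0 + 8 * (ap b 1 + 8 * (ap b 2 + 8 * (ap b 3 + 8 * (ap b 4 + 8 * (ap b 5 + 8 * (ap b 6 +
    8 * ap b 7)))))) := by decide +kernel
  rw [k b hb, k c hc]
  simp [h]

/-- the Sylow subgroup -/
def T : Subgroup W where
  carrier := {g | ∃ x < 256, ∃ b ∈ T64, g = ep x * pm b}
  one_mem' := ⟨0, by decide, idA, by decide, by rw [ep_zero, pm_id, one_mul]⟩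
  mul_mem' := by
    rintro _ _ ⟨x, hx, b, hb, rfl⟩ ⟨y, -, c, hc, rfl⟩
    refine ⟨_, xor_lt hx (act_lt b y), _, (t1 b hb c hc).1, ?_⟩
    rw [ep_xor, ← pm_mul (ok_T64 b hb) (ok_T64 c hc) (ok_T64 _ (t1 b hb c hc).1) (t1 b hb c hc).2, mul_assoc,
      ← mul_assoc (pm b), pm_ep (ok_T64 b hb)]
    simp only [mul_assoc]
  inv_mem' := by
    rintro _ ⟨x, -, b, hb, rfl⟩
    obtain ⟨d, hd, e⟩ := t2 b hb
    refine ⟨_, act_lt d x, d, hd, ?_⟩
    rw [← pm_ep (ok_T64 d hd), _root_.mul_inv_rev, ep_inv,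
      inv_eq_of_mul_eq_one_left ((pm_mul (ok_T64 d hd) (ok_T64 b hb) ok_idA e).trans pm_id)]

set_option maxRecDepth 8000 in
theorem card_T : Nat.card T = 2 ^ 14 := by
  have : (T : Set W) = (fun p : ℕ × ℕ => ep p.1 * pm p.2) '' (Finset.range 256 ×ˢ T64.toFinset : Finset _) := by
    ext g
    simp only [Set.mem_image, Finset.mem_coe, Finset.mem_product, Finset.mem_range, List.mem_toFinset]
    exact ⟨fun ⟨x, a, b, c, e⟩ => ⟨(x, b), ⟨a, c⟩, e.symm⟩, fun ⟨p, a, e⟩ => ⟨p.1, a.1, p.2, a.2, e.symm⟩⟩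
  rw [← SetLike.coe_sort_coe, Nat.card_coe_set_eq, this, Set.InjOn.ncard_image, Set.ncard_coe_finset, Finset.card_product,
    List.toFinset_card_of_nodup (by decide +kernel)]
  · rw [Finset.card_range]; decide +kernel
  rintro ⟨x, b⟩ h ⟨y, c⟩ h' e
  simp only [Finset.mem_coe, Finset.mem_product, Finset.mem_range, List.mem_toFinset] at h h' e
  obtain rfl : b = c := t3 b h.2 c h'.2 fun i hi => by_contra fun n => by
    have := congrArg (fun g : W => g.m (pe (ok_T64 b h.2) ⟨i, hi⟩) ⟨i, hi⟩) e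
    simp only [m_mul, m_ep, diagonal_mul, m_pm (ok_T64 b h.2), m_pm (ok_T64 c h'.2), Fin.ext_iff, pe_val, n, if_true,
      if_false, mul_one, mul_zero, Int.cast_eq_zero] at this
    simpa [this] using sg_sq x (pe (ok_T64 b h.2) ⟨i, hi⟩)
  rw [ep_inj h.1 h'.1 (mul_right_cancel e)]

theorem jobSYL : JobSYL := fun h A hA => by
  have : Finite W := Nat.finite_of_card_ne_zero (by rw [h]; decide)
  have : Fact (Nat.Prime 2) := ⟨Nat.prime_two⟩
  obtain ⟨P, hP⟩ := hA.exists_le_sylow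
  obtain ⟨g, e⟩ := MulAction.exists_smul_eq W P (Sylow.ofCard T (by
    rw [card_T, h, show 696729600 = 2 ^ 14 * 42525 from rfl,
      Nat.factorization_mul (by decide) (by decide), Nat.factorization_pow, Finsupp.add_apply,
      Nat.factorization_eq_zero_of_not_dvd (n := 42525) (by decide)]
    simp [Nat.prime_two.factorization_self]))
  refine ⟨g, fun a ha => ?_⟩
  have : g * a * g⁻¹ ∈ (g • P : Sylow 2 W) := Subgroup.smul_mem_pointwise_smul _ (MulAut.conj g) _ (hP ha)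
  rwa [e] at this

end H75.E8S
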