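/- The decomposition `Q = V C` (job A2 of the K64 tower). -/
import Cfsg.Agent.H34.K6Spec

set_option autoImplicit false

namespace H75.K6
open Subgroup Cfsg H8.BC H92 H9 H34.K6
open scoped commutatorElement
universe u

theorem jobA2 : JobA2.{u} := by
  intro P _ _ Q s w σ k h v
  classical
  have hG := k.p
  have I := h.cm_inv hG
  have hV := hG.to_subgroup (cm σ)
  have m := mulOn_af σ
  have mW : ∀ {a}, a ∈ zpowers w → a = 1 ∨ a = w := eq_of_mem_zpowers (by rw [pow_two, v.w2])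
  have hc : ∀ y ∈ cm σ, ∀ z ∈ cm σ, ⁅y, z⁆ ∈ zpowers w := fun y a z b => v.phi ▸ commutator_mem_phi hV a b
  have wV : zpowers w ≤ cm σ := v.phi ▸ phi_le _
  have cW : ∀ {g}, (∀ y ∈ cm σ, g * y * g⁻¹ ∈ cm σ) → ∀ {a}, a ∈ zpowers w → g * a * g⁻¹ ∈ zpowers w := fun hg _ a =>
    v.phi ▸ conj_mem_phi (mem_normalizer_of_finite hg) (v.phi ▸ a)
  have sW : ∀ {a}, a ∈ zpowers w → af σ a ∈ zpowers w := fun a => v.phi ▸ af_mem_phi cm_le (fun _ => cm_sig) (v.phi ▸ a)
  have sw : af σ w = w := (mW (sW (mem_zpowers w))).elim (fun e => by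
    rw [e, (af σ).injective (e.trans m.map_one.symm)]) id
  have f4 := fun {y c x} => four (R := cm σ) hc (fun y a => v.phi ▸ pow_mem_phi hV a)
    (by rw [← v.phi, relIndex_phi]; exact v.idx) (y := y) (c := c) (w := x)
  have fx : ∀ t ∈ cm σ, af σ t = t → t ∈ zpowers w := fun t ht e => by_contra fun n => by
    have := h.t3 hc ht
    rw [e, e, v.sq t ht n] at this
    exact n ((mul_mem_cancel_left (mem_zpowers w)).1 this)
  have fx' : ∀ t ∈ cm σ, t⁻¹ * af σ t ∈ zpowers w → t ∈ zpowers w := fun t ht e => fx t ht (by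
    rcases mW e with e | e <;> rw [inv_mul_eq_iff_eq_mul] at e
    · simpa using e
    · have := h.af3 t
      rwa [show af σ (af σ t) = t by
        rw [e, m.map_mul (cm_le ht) (cm_le (wV (mem_zpowers w))), e, sw, mul_assoc, v.w2, mul_one]] at this)
  let C : Subgroup P :=
    { carrier := {y | y ∈ Q ∧ af σ y = y}
      one_mem' := ⟨one_mem _, m.map_one⟩
      mul_mem' := fun a b => ⟨mul_mem a.1 b.1, by rw [m.map_mul a.1 b.1, a.2, b.2]⟩
      inv_mem' := fun a => ⟨inv_mem a.1, by rw [m.map_inv a.1, a.2]⟩ }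
  have WC : zpowers w ≤ C := zpowers_le.2 ⟨cm_le (wV (mem_zpowers w)), sw⟩
  have cV : ∀ c ∈ C, ∀ t ∈ cm σ, c * t = t * c := fun c hc' t ht => by
    have a0 : ∀ a ∈ zpowers w, c * a * c⁻¹ = a := fun a ha => by
      rcases mW ha with rfl | rfl
      · simp
      · exact (mW (cW (fun _ => cm_conj hc'.1) ha)).elim (fun e => by rw [conj_eq_one_iff.1 e]; simp) id
    rw [← mul_inv_eq_iff_eq_mul]
    refine by_contra fun n0 => ?_
    have n := mt (a0 t) n0
    have t1 := cm_sig ht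
    have t2 := cm_sig t1
    have n2 : af σ (af σ t) ∉ zpowers w := fun e => n (h.af3 t ▸ sW e)
    have sc : ∀ g ∈ C, ∀ x ∈ cm σ, af σ (g * x * g⁻¹) = g * af σ x * g⁻¹ := fun g hg x hx => by
      rw [m.map_conj hg.1 (cm_le hx), hg.2]
    have sE : ∀ x ∈ cm σ, ∀ y ∈ cm σ, x⁻¹ * y ∈ zpowers w → (af σ x)⁻¹ * af σ y ∈ zpowers w := fun x a y b e => by
      rw [← m.map_inv (cm_le a), ← m.map_mul (inv_mem (cm_le a)) (cm_le b)]; exact sW e
    have d1 : ∀ g ∈ C, (af σ t)⁻¹ * (g * t * g⁻¹) ∈ zpowers w →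
        (af σ (af σ t))⁻¹ * (g * g * t * (g * g)⁻¹) ∈ zpowers w := fun g hg e => by
      have := sE _ t1 _ (cm_conj hg.1 ht) e
      rw [sc g hg t ht] at this
      simpa [mul_assoc] using mul_mem this (cW (fun _ => cm_conj hg.1) e)
    have d2 : ∀ g ∈ C, (af σ (af σ t))⁻¹ * (g * t * g⁻¹) ∈ zpowers w →
        (af σ t)⁻¹ * (g * g * t * (g * g)⁻¹) ∈ zpowers w := fun g hg e => by
      have := sE _ (cm_sig t2) _ (cm_sig (cm_conj hg.1 ht)) (sE _ t2 _ (cm_conj hg.1 ht) e)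
      rw [sc g hg t ht, sc g hg _ t1, h.af3] at this
      simpa [mul_assoc] using mul_mem this (cW (fun _ => cm_conj hg.1) e)
    have c2 := mul_mem hc' hc'
    have c8 : c * c * (c * c) * (c * c * (c * c)) = 1 := by rw [← k.exp c]; simp only [pow_succ, pow_zero, one_mul, mul_assoc]
    rcases f4 ht t1 (cm_conj hc'.1 ht) n (mt sW n2) (fun e => n2 ((mul_mem_cancel_left e).1 (h.t3 hc ht))) with e | e | e | e
    · exact n (by simpa [mul_assoc] using cW (fun _ => cm_conj (inv_mem hc'.1)) e)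
    · have e1 := (mW e).resolve_left fun x => n0 (inv_mul_eq_one.1 x).symm
      rw [inv_mul_eq_iff_eq_mul] at e1
      have wQ := cm_le (wV (mem_zpowers w))
      have e2 : c * af σ t * c⁻¹ = af σ t * w := by rw [← sc c hc' t ht, e1, m.map_mul (cm_le ht) wQ, sw]
      have e3 : c * af σ (af σ t) * c⁻¹ = af σ (af σ t) * w := by rw [← sc c hc' _ t1, e2, m.map_mul (cm_le t1) wQ, sw]
      have e4 := a0 _ (h.t3 hc ht)
      have e5 : ∀ x ∈ cm σ, w * x = x * w := fun x hx => (mW (cW (fun _ => cm_conj (cm_le hx)) (mem_zpowers w))).elim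
        (fun e => by rw [conj_eq_one_iff.1 e]; simp) fun e => (mul_inv_eq_iff_eq_mul.1 e).symm
      rw [← conj_mul, ← conj_mul, e1, e2, e3, mul_assoc t w, ← mul_assoc w, e5 _ t1, mul_assoc _ w w, v.w2, mul_one,
        ← mul_assoc, mul_eq_left] at e4
      exact n0 (by rw [e1, e4, mul_one])
    · have := sE _ t2 _ ht (by simpa [c8] using d1 _ (mul_mem c2 c2) (d2 _ c2 (d1 c hc' e)))
      exact n (fx' t ht (h.af3 t ▸ this :))
    · have e1 : (af σ (af σ t))⁻¹ * (c * t * c⁻¹) ∈ zpowers w := by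
        have x : af σ (af σ t) * af σ (af σ t) ∈ zpowers w := (v.sq _ t2 n2).symm ▸ mem_zpowers w
        simpa [mul_assoc] using mul_mem (mul_mem (cW (fun _ => cm_conj (inv_mem (cm_le t2))) (h.t3 hc ht)) (inv_mem x)) e
      exact n (fx' t ht (by simpa [c8] using inv_mem (d2 _ (mul_mem c2 c2) (d1 _ c2 (d2 c hc' e1)))))
  have dec : ∀ y ∈ Q, ∃ r ∈ cm σ, ∃ c ∈ C, y = r * c := fun y hy => by
    let f : Function.End (cm σ) := fun r => ⟨y⁻¹ * af σ (y * r), by
      rw [m.map_mul hy (cm_le r.2), ← mul_assoc]; exact mul_mem (mem_cm hy) (cm_sig r.2)⟩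
    haveI := Fintype.ofFinite (cm σ)
    haveI : Fact (Nat.Prime 3) := ⟨Nat.prime_three⟩
    have h2 := Equiv.Perm.card_fixedPoints_modEq (f := f) (p := 3) (n := 1) (funext fun r => Subtype.ext (by
      change y⁻¹ * af σ (y * (y⁻¹ * af σ (y * (y⁻¹ * af σ (y * r))))) = r
      rw [mul_inv_cancel_left, mul_inv_cancel_left, h.af3, inv_mul_cancel_left]))
    obtain ⟨n, e⟩ := IsPGroup.iff_card.1 hV
    by_cases h3 : Nonempty (Function.fixedPoints f)
    · obtain ⟨r, hr⟩ := h3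
      have a : y * r ∈ C := ⟨mul_mem hy (cm_le r.2), inv_mul_eq_iff_eq_mul.1 (congrArg Subtype.val hr)⟩
      exact ⟨_, inv_mem r.2, _, a, by rw [← cV _ a _ (inv_mem r.2), mul_inv_cancel_right]⟩
    · rw [Fintype.card_eq_zero_iff.2 (not_nonempty_iff.1 h3), Fintype.card_eq_nat_card, e,
        Nat.modEq_zero_iff_dvd] at h2
      exact absurd (Nat.prime_three.dvd_of_dvd_pow h2) (by decide)
  obtain ⟨i, hi, hu⟩ := h.exists_y hG I
  rw [v.phi] at hu
  obtain ⟨u, e⟩ : ∃ u, s * i * s⁻¹ = i * u := ⟨_, (mul_inv_cancel_left i _).symm⟩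
  have uV : u ∈ cm σ := (mul_mem_cancel_left hi).1 (e ▸ I.sn i hi)
  have n1 : i ∉ zpowers w := fun a => hu (mul_mem (inv_mem a) (cW I.sn a))
  have n3 : i * u ∉ zpowers w := fun a => n1 (by
    rw [← e, ← v.phi] at a
    simpa [mul_assoc, v.phi] using conj_mem_phi (inv_mem (mem_normalizer_of_finite I.sn)) a)
  rw [e, inv_mul_cancel_left] at hu
  have u2 := v.sq u uV hu
  refine ⟨C, i, u, ⟨h.cen, h.sn, h.s_not, h.nor, fun _ a => a.1, fun c a => ⟨h.sn c a.1, by simpa [a.2] using h.inv c a.1⟩,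
    cm_le hi, cm_le uV, WC (mem_zpowers w), v.w2, v.sq i hi n1, u2, ?_, e, ?_, fun c a => cV c a i hi, fun c a => cV c a u uV,
    fun q hq => ?_, fun a => n1 (fx i hi a.2), fun a => hu (fx u uV a.2), fun a => n3 (fx _ (mul_mem hi uV) a.2)⟩,
    fun y a b => ⟨a, b⟩⟩
  · have := (v.sq _ (mul_mem hi uV) n3).trans (v.sq i hi n1).symm
    rw [mul_assoc, mul_right_inj] at this
    rw [mul_inv_eq_iff_eq_mul, eq_inv_mul_iff_mul_eq, this]
  · obtain ⟨r, hr, c, hc', f⟩ := dec (s * s) ((h.nor _ fun y a => by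
      simpa [mul_assoc] using h.sn _ (h.sn y a)).resolve_right (by simpa using h.s_not))
    have : s * u * s⁻¹ = u⁻¹ * ⁅i⁻¹, r⁆ := by
      calc _ = (s * i * s⁻¹)⁻¹ * (s * (i * u) * s⁻¹) := by group
        _ = (s * i * s⁻¹)⁻¹ * (s * (s * i * s⁻¹) * s⁻¹) := by rw [e]
        _ = (i * u)⁻¹ * (r * (c * i) * c⁻¹ * r⁻¹) := by
          rw [show s * (s * i * s⁻¹) * s⁻¹ = s * s * i * (s * s)⁻¹ by group, f, e]; group
        _ = _ := by rw [cV c hc' i hi, commutatorElement_def]; group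
    rw [this]
    rcases mW (hc _ (inv_mem hi) r hr) with a | a <;> rw [a]
    exacts [.inr (mul_one _), .inl (by rw [← u2, inv_mul_cancel_left])]
  · obtain ⟨r, hr, c, hc', rfl⟩ := dec q hq
    rcases f4 hi uV hr n1 hu n3 with a | a | a | a
    exacts [⟨_, mul_mem (WC a) hc', .inl rfl⟩, ⟨_, mul_mem (WC a) hc', .inr (.inr (.inl (by group)))⟩,
      ⟨_, mul_mem (WC a) hc', .inr (.inl (by group))⟩, ⟨_, mul_mem (WC a) hc', .inr (.inr (.inr (by group)))⟩]

end H75.K6
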