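import Cfsg.Agent.H75.Basic

/-! Classes of involutions with products of odd order. -/

namespace H75

variable {G : Type*} [Group G]

theorem eq_sq_pow_of_odd {x : G} (h : Odd (orderOf x)) : ∃ k : ℕ, (x ^ 2) ^ k = x := by
  obtain ⟨k, hk⟩ := h
  refine ⟨k + 1, ?_⟩
  rw [← pow_mul, show 2 * (k + 1) = orderOf x + 1 by omega, pow_succ, pow_orderOf_eq_one, one_mul]

theorem commute_of_commute_sq {x w : G} (h : Odd (orderOf x)) (hc : Commute w (x ^ 2)) :
    Commute w x := by
  obtain ⟨k, hk⟩ := eq_sq_pow_of_odd h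
  rw [← hk]; exact hc.pow_right k

theorem eq_one_of_sq_of_odd {x : G} (h : Odd (orderOf x)) (h2 : x ^ 2 = 1) : x = 1 := by
  obtain ⟨k, hk⟩ := eq_sq_pow_of_odd h
  rw [← hk, h2, one_pow]

theorem invol_mul_pow {e r : G} (h : e * r = r⁻¹ * e) (k : ℕ) : e * r ^ k = (r ^ k)⁻¹ * e := by
  induction k with
  | zero => simp
  | succ k ih => rw [pow_succ, ← mul_assoc, ih, mul_assoc, h, ← mul_assoc, ← mul_inv_rev,
      ← pow_succ', pow_succ]

/-- two involutions with product of odd order are swapped by a conjugate of the first lying in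
the dihedral group -/
theorem exists_swap_of_odd {e f : G} (he : e * e = 1) (hf : f * f = 1)
    (h : Odd (orderOf (e * f))) :
    ∃ k m : ℕ, (e * f) ^ k * e * e * ((e * f) ^ k * e) = f ∧
      (e * f) ^ k * e = (e * f) ^ m * e * ((e * f) ^ m)⁻¹ ∧ (e * f) ^ (2 * k + 1) = 1 := by
  have he' : e⁻¹ = e := inv_eq_of_mul_eq_one_right he
  have hf' : f⁻¹ = f := inv_eq_of_mul_eq_one_right hf
  obtain ⟨k, hk⟩ := h
  have h1 : (e * f) ^ (2 * k + 1) = 1 := by rw [← hk, pow_orderOf_eq_one]
  have h2 : e * (e * f) = (e * f)⁻¹ * e := by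
    rw [mul_inv_rev, he', hf', ← mul_assoc, he, mul_assoc, he, one_mul, mul_one]
  refine ⟨k, k * (k + 1), ?_, ?_, h1⟩
  · rw [mul_assoc _ e e, he, mul_one, ← mul_assoc, ← pow_add]
    have : (e * f) ^ (k + k) = (e * f)⁻¹ := by
      rw [eq_inv_iff_mul_eq_one, ← pow_succ, ← h1]; congr 1; omega
    rw [this, ← h2, ← mul_assoc, he, one_mul]
  · have h3 := invol_mul_pow h2 (k * (k + 1))
    have h4 : e * ((e * f) ^ (k * (k + 1)))⁻¹ = (e * f) ^ (k * (k + 1)) * e := by
      rw [mul_inv_eq_iff_eq_mul, mul_assoc, h3, mul_inv_cancel_left]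
    rw [mul_assoc, h4, ← mul_assoc, ← pow_add,
      show k * (k + 1) + k * (k + 1) = (2 * k + 1) * k + k by ring, pow_add, pow_mul, h1, one_pow,
      one_mul]

theorem eq_of_conj_eq_of_odd {e a b : G} (he : e * e = 1) (ha : a * a = 1) (hb : b * b = 1)
    (h1 : Odd (orderOf (e * a))) (h2 : Odd (orderOf (a * b))) (h : a * e * a = b * e * b) :
    a = b := by
  have ha' : a⁻¹ = a := inv_eq_of_mul_eq_one_right ha
  have hb' : b⁻¹ = b := inv_eq_of_mul_eq_one_right hb
  have sa : ∀ x, a * (a * x) = x := fun x => by rw [← mul_assoc, ha, one_mul]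
  have sb : ∀ x, b * (b * x) = x := fun x => by rw [← mul_assoc, hb, one_mul]
  have h3 : Commute (a * b) e := by
    have : a * b * e = a * (b * e * b) * b := by simp only [mul_assoc, hb, mul_one]
    rw [Commute, SemiconjBy, this, ← h]
    simp only [mul_assoc, sa]
  have h4 : Commute (a * b) (a * e * a) := by
    have : a * b * (a * e * a) = a * e * b := by rw [h]; simp only [mul_assoc, sb]
    rw [Commute, SemiconjBy, this]
    simp only [mul_assoc, sa]
  have h5 : Commute (a * b) (e * a) := commute_of_commute_sq h1 (by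
    have := h3.mul_right h4
    rwa [pow_two, mul_assoc e a, ← mul_assoc a e a])
  have h6 : Commute (a * b) a := by
    have := h3.mul_right h5
    rwa [← mul_assoc, he, one_mul] at this
  have h7 : (a * b) ^ 2 = 1 := by
    rw [pow_two, ← mul_assoc, h6.eq, sa, hb]
  have := eq_one_of_sq_of_odd h2 h7
  rw [← hb']; exact eq_inv_of_mul_eq_one_left this

end H75
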