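/- U4 tower (row S5210), chapter q = 3: the explicit elements (`Dat`) and `KK`. -/
import Cfsg.Agent.H90.Q3Spec

set_option autoImplicit false
set_option linter.unusedVariables false

open Subgroup H28.U4 H77 Cfsg H90.Q3

namespace H75.Q3D

/-- the roots of the first five letters -/
def rt : Fin 5 → V := ![a2, a3, a4, ee, b3]

theorem rt_ne : ∀ i, dot (rt i) (rt i) ≠ 0 := by decide +kernel

theorem ck_l : ∀ (i : Fin 5) (k : Fin 4), eqF (actW LQ (wq (sc (bs k)) ++ [12 + i.val]))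
    (actW LQ ([12 + i.val] ++ wq (sc (Jf (rt i) (bs k))))) = true := by decide +kernel

theorem cj_of (i : ℕ) {u u' : Co T9}
    (e : eqF (actW LQ (wq u ++ [12 + i])) (actW LQ ([12 + i] ++ wq u')) = true) :
    nn i * io u * (nn i)⁻¹ = io u' := by
  have h := elW_eq inLQ e
  rw [elW_append, elW_append, elW_one, ← io_eq, ← io_eq] at h
  rw [mul_inv_eq_iff_eq_mul]; exact h

/-- the elements of `Q` on which `n` induces `g` -/
def lfS (n : Co0) {g : W → W} (hg : Ad g) : Subgroup (Co T9) where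
  carrier := {u | u ∈ sQ T9 ∧ ∃ u' ∈ sQ T9, n * io u * n⁻¹ = io u' ∧ u'.π = g u.π}
  one_mem' := ⟨one_mem _, 1, one_mem _, by simp, by
    change (0 : W) = g 0
    rw [hg.zero]⟩
  mul_mem' := by
    rintro u w ⟨hu, u', hu', e, p⟩ ⟨hw, w', hw', f, q⟩
    refine ⟨mul_mem hu hw, u' * w', mul_mem hu' hw', ?_, ?_⟩
    · rw [map_mul, map_mul, ← e, ← f]; group
    · rw [π_mul hw', π_mul hw, hg, p, q]
  inv_mem' := by
    rintro u ⟨hu, u', hu', e, p⟩
    have k : ∀ x ∈ sQ T9, (x⁻¹).π = -x.π := fun x hx => by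
      have := π_mul (u := x⁻¹) hx
      rw [inv_mul_cancel] at this
      exact eq_neg_of_add_eq_zero_left this.symm
    refine ⟨inv_mem hu, u'⁻¹, inv_mem hu', ?_, ?_⟩
    · rw [map_inv, map_inv, ← e]; group
    · rw [k _ hu', k _ hu, hg.neg, p]

theorem lf (i : Fin 5) : Lf io (nn i) (Jp (rt i)) := fun u hu =>
  (Q_le (H := lfS (nn i) (ad_Jp (rt i))) (fun k =>
    ⟨sc_mem _, _, sc_mem _, cj_of i (ck_l i k), (Jp_apply (rt_ne i) _).symm⟩) hu).2

/-- the elements of `A` that `n` maps into `A` -/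
def laS (n : Co0) : Subgroup (Co T9) where
  carrier := {u | ∃ u' ∈ sA T9, n * io u * n⁻¹ = io u'}
  one_mem' := ⟨1, one_mem _, by simp⟩
  mul_mem' := by
    rintro u w ⟨u', hu', e⟩ ⟨w', hw', f⟩
    exact ⟨u' * w', mul_mem hu' hw', by rw [map_mul, map_mul, ← e, ← f]; group⟩
  inv_mem' := by
    rintro u ⟨u', hu', e⟩
    exact ⟨u'⁻¹, inv_mem hu', by rw [map_inv, map_inv, ← e]; group⟩

theorem la : La io (nn 5) := by
  have z : nn 5 * io zz * (nn 5)⁻¹ = io (el 0 2 0) := cj_of 5 (by decide +kernel)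
  refine ⟨fun u hu => A_le (H := laS (nn 5))
    ⟨sc (0, ⟨0, 2⟩), rfl, cj_of 5 (by decide +kernel)⟩ ⟨sc (0, ⟨2, 0⟩), rfl, cj_of 5 (by decide +kernel)⟩
    ⟨_, rfl, z⟩ ⟨el 0 0 2, rfl, cj_of 5 (by decide +kernel)⟩ hu, _, fun h => ?_, z⟩
  exact absurd h.2.1 (by decide)

theorem sv : isS cv = true := by decide +kernel
theorem sw : isS cw = true := by decide +kernel
theorem s3 : isS c3 = true := by decide +kernel
theorem s4 : isS c4 = true := by decide +kernel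

theorem fx {c : ℕ} (hc : isS c = true) (h : ∀ k, actW LQ (wq (sc (bs k))) c = c) (t : actW LQ (wq tb) c = c)
    (u : Co T9) : io u • vecOf c = vecOf c :=
  top_le (H := (MulAction.stabilizer Co0 (vecOf c)).comap io)
    (fun k => by rw [mem_comap, MulAction.mem_stabilizer_iff, io_eq]; exact elW_smul _ hc hc (h k))
    (by rw [mem_comap, MulAction.mem_stabilizer_iff, io_eq]; exact elW_smul _ hc hc t) u

theorem ns (i : ℕ) {c d : ℕ} (hc : isS c = true) (hd : isS d = true) (e : actW LQ [12 + i] c = d) :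
    nn i • vecOf c = vecOf d := by
  rw [nn, ← elW_one]; exact elW_smul _ hc hd e

theorem nx (i : ℕ) {c d : ℕ} (hc : isS c = true) (hd : isS d = true) (e : actW LQ [12 + i] c ≠ d) :
    nn i • vecOf c ≠ vecOf d := by
  rw [nn, ← elW_one]; exact elW_smul_ne _ hc hd e

theorem n12 : nn 1 * nn 2 = elW LQ [14, 13] := by
  rw [show [14, 13] = [14] ++ [13] from rfl, elW_append, elW_one, elW_one]; rfl

theorem s_all (u : Co T9) : io u • vv = vv ∧ io u • vw = vw ∧ io u • v3 = v3 ∧ io u • v4 = v4 :=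
  ⟨fx sv (by decide +kernel) (by decide +kernel) u, fx sw (by decide +kernel) (by decide +kernel) u,
    fx s3 (by decide +kernel) (by decide +kernel) u, fx s4 (by decide +kernel) (by decide +kernel) u⟩

theorem f0 : nn 0 • vv = vv ∧ nn 0 • vw = vw ∧ nn 0 • v3 = v3 ∧ nn 0 • v4 = v4 := by
  unfold vv vw v3 v4
  exact ⟨ns 0 sv sv (by decide +kernel), ns 0 sw sw (by decide +kernel), ns 0 s3 s3 (by decide +kernel),
    ns 0 s4 s4 (by decide +kernel)⟩

theorem f1 : nn 1 • vv = vv ∧ nn 1 • vw = vw ∧ nn 1 • v4 ≠ v3 ∧ nn 1 • v4 ≠ v4 := by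
  unfold vv vw v3 v4
  exact ⟨ns 1 sv sv (by decide +kernel), ns 1 sw sw (by decide +kernel), nx 1 s4 s3 (by decide +kernel),
    nx 1 s4 s4 (by decide +kernel)⟩

theorem f2 : nn 2 • vv = vv ∧ nn 2 • vw ≠ vw := by
  unfold vv vw
  exact ⟨ns 2 sv sv (by decide +kernel), nx 2 sw sw (by decide +kernel)⟩

theorem f3 : nn 3 • vv = vw ∧ nn 3 • vw = vv := by
  unfold vv vw
  exact ⟨ns 3 sv sw (by decide +kernel), ns 3 sw sv (by decide +kernel)⟩

theorem f4 : nn 4 • vv = vv ∧ nn 4 • v3 = v3 ∧ nn 4 • v4 = v4 := by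
  unfold vv v3 v4
  exact ⟨ns 4 sv sv (by decide +kernel), ns 4 s3 s3 (by decide +kernel), ns 4 s4 s4 (by decide +kernel)⟩

theorem f5 : nn 5 • vv = vv ∧ nn 5 • vw = vw ∧ nn 5 • v3 = v3 ∧ nn 5 • v4 = v4 := by
  unfold vv vw v3 v4
  exact ⟨ns 5 sv sv (by decide +kernel), ns 5 sw sw (by decide +kernel), ns 5 s3 s3 (by decide +kernel),
    ns 5 s4 s4 (by decide +kernel)⟩

theorem f12 : (nn 1 * nn 2) • v3 = v4 ∧ (nn 1 * nn 2) • v4 = v3 ∧ v3 ≠ v4 := by
  rw [n12]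
  unfold v3 v4
  refine ⟨elW_smul _ s3 s4 (by decide +kernel), elW_smul _ s4 s3 (by decide +kernel), fun h => ?_⟩
  exact elW_smul_ne [] s3 s4 (by decide +kernel) ((one_smul Co0 _).trans h)

theorem dat : Dat := ⟨lf 0, lf 1, lf 2, lf 3, lf 4, la, s_all, f0, f1, f2, f3, f4, f5, f12⟩

theorem jobDat : JobDat := dat

theorem jobKK : JobKK := fun hI hK hD n n' g h h' v v' => by
  classical
  -- the maps induced on `Q`
  have ex : ∀ {m : Co0}, Lf io m g → ∃ β : Co T9 → Co T9, H90.RF.Au (sQ T9) β ∧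
      ∀ u ∈ sQ T9, m * io u * m⁻¹ = io (β u) ∧ (β u).π = g u.π := fun {m} hm => by
    choose! β hβ using hm
    refine ⟨β, H90.RF.Au.of_inj (fun u hu => (hβ u hu).1) (fun u hu w hw => io_inj ?_) fun u hu w hw e => io_inj ?_,
      fun u hu => (hβ u hu).2⟩
    · rw [map_mul, ← (hβ _ (mul_mem hu hw)).2.1, ← (hβ u hu).2.1, ← (hβ w hw).2.1, map_mul]; group
    · have := (hβ u hu).2.1
      rw [e, ← (hβ w hw).2.1] at this
      exact mul_left_cancel (mul_right_cancel this)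
  obtain ⟨β, aβ, eβ⟩ := ex h
  obtain ⟨β', aβ', eβ'⟩ := ex h'
  obtain ⟨γ, aγ, e1, e2⟩ := aβ'.exists_inv
  obtain ⟨s, hs, es⟩ := hI (fun u => γ (β u)) (aγ.comp aβ) fun u hu => g.injective (by
    rw [← (eβ' _ (aγ.mem _ (aβ.mem u hu))).2, e1 _ (aβ.mem u hu), (eβ u hu).2])
  have k := hK ((io s)⁻¹ * (n'⁻¹ * n)) (fun u hu => by
    have a := (eβ' _ (aγ.mem _ (aβ.mem u hu))).1
    rw [e1 _ (aβ.mem u hu), ← (eβ u hu).1, es u hu, map_mul, map_mul, map_inv] at a
    calc (io s)⁻¹ * (n'⁻¹ * n) * io u = (io s)⁻¹ * (n'⁻¹ * (n * io u * n⁻¹) * n) := by group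
      _ = _ := by rw [← a]; group)
    (by rw [mul_smul, mul_smul, v, inv_smul_eq_iff.2 v'.symm, inv_smul_eq_iff.2 (hD.s s).1.symm])
  simp only [mul_smul, inv_smul_eq_iff, (hD.s s).2.1, (hD.s s).2.2.2] at k
  exact k

end H75.Q3D
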