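import Cfsg.Agent.H75.OddClass
import Cfsg.Agent.H75.WidthOne
import Cfsg.Agent.H2.Core
import Cfsg.Agent.H1.InvSylow
import Cfsg.Agent.H4.Product
import Cfsg.Agent.S0215

/-! Classes of involutions with products of `p`-power order. -/

namespace H75

open Cfsg Subgroup

variable {G : Type*} [Group G]

theorem conj_sq_eq_one {d a : G} (hd : orderOf d = 2) (ha : a ∈ conjugatesOf d) : a * a = 1 := by
  obtain ⟨g, rfl⟩ := isConj_iff.1 ha
  have := pow_orderOf_eq_one d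
  rw [hd, pow_two] at this
  calc g * d * g⁻¹ * (g * d * g⁻¹) = g * (d * d) * g⁻¹ := by group
    _ = 1 := by rw [this]; simp

theorem conj_mem_conjugatesOf {d a : G} (g : G) (ha : a ∈ conjugatesOf d) :
    g * a * g⁻¹ ∈ conjugatesOf d := IsConj.trans ha (isConj_iff.2 ⟨g, rfl⟩)

/-- Z*-theorem for a class with products of odd order -/
theorem exists_odd_normal_of_odd_products [Finite G] {d : G} (hd : orderOf d = 2)
    (hodd : ∀ a ∈ conjugatesOf d, ∀ b ∈ conjugatesOf d, Odd (orderOf (a * b))) :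
    ∃ N : Subgroup G, N.Normal ∧ Odd (Nat.card N) ∧ (∀ e ∈ conjugatesOf d, d * e ∈ N) ∧
      ∀ e ∈ conjugatesOf d, ∃ n ∈ N, e = n * d * n⁻¹ := by
  have hdD : d ∈ conjugatesOf d := IsConj.refl d
  have hi : d⁻¹ = d := inv_eq_of_mul_eq_one_right (conj_sq_eq_one hd hdD)
  have h2 : IsPGroup 2 (zpowers d) := IsPGroup.of_card (n := 1) (by rw [Nat.card_zpowers, hd]; rfl)
  obtain ⟨P, hP⟩ := h2.exists_le_sylow
  obtain ⟨N, hN, hNodd, h⟩ := Cfsg.Agent.S0215.result P d hd (hP (mem_zpowers d)) fun g hg => by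
    obtain ⟨k, hk⟩ := P.isPGroup' ⟨_, mul_mem (hP (mem_zpowers d)) hg⟩
    have h1 := orderOf_dvd_of_pow_eq_one
      (congrArg Subtype.val hk : (d * (g * d * g⁻¹)) ^ 2 ^ k = 1)
    have h3 := hodd d hdD _ (conj_mem_conjugatesOf g hdD)
    have h4 := orderOf_eq_one_iff.1
      (Nat.eq_one_of_dvd_coprimes ((Nat.coprime_two_left.2 h3).pow_left k) h1 dvd_rfl)
    exact (eq_inv_of_mul_eq_one_right h4).trans hi
  have h1 : ∀ e ∈ conjugatesOf d, d * e ∈ N := by
    intro e he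
    obtain ⟨g, rfl⟩ := isConj_iff.1 he
    have := h g
    rwa [hi, mul_assoc, mul_assoc, ← mul_assoc g] at this
  refine ⟨N, hN, hNodd, h1, fun e he => ?_⟩
  obtain ⟨k, m, h3, h4, -⟩ := exists_swap_of_odd (conj_sq_eq_one hd hdD) (conj_sq_eq_one hd he)
    (hodd d hdD e he)
  refine ⟨(d * e) ^ k, N.pow_mem (h1 e he) k, ?_⟩
  have h5 := inv_eq_of_mul_eq_one_right (conj_sq_eq_one hd (h4 ▸ conj_mem_conjugatesOf _ hdD :
    (d * e) ^ k * d ∈ conjugatesOf d))
  generalize (d * e) ^ k = n at h3 h5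
  rw [← h3]
  nth_rewrite 2 [← h5]
  group

theorem mul_mem_pCore_of_prime_pow [Finite G] {p : ℕ} (hp : p.Prime) (hp2 : p ≠ 2) {d : G}
    (hd : orderOf d = 2)
    (hprod : ∀ a ∈ conjugatesOf d, ∀ b ∈ conjugatesOf d, ∃ k : ℕ, orderOf (a * b) = p ^ k) :
    ∀ a ∈ conjugatesOf d, ∀ b ∈ conjugatesOf d, a * b ∈ pCore p G := by
  have hdD : d ∈ conjugatesOf d := IsConj.refl d
  have hi : d⁻¹ = d := inv_eq_of_mul_eq_one_right (conj_sq_eq_one hd hdD)
  obtain ⟨N, hN, hNodd, -, horb⟩ := exists_odd_normal_of_odd_products hd fun a ha b hb => by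
    obtain ⟨k, hk⟩ := hprod a ha b hb
    rw [hk]; exact (hp.odd_of_ne_two hp2).pow
  have hsyl : ∀ (q : ℕ) [Fact q.Prime], ∃ Q : Sylow q N,
      ∀ x ∈ (Q : Subgroup N).map N.subtype, d * x * d⁻¹ ∈ (Q : Subgroup N).map N.subtype := by
    intro q _
    obtain ⟨Q, hQ⟩ := H1.exists_invariant_sylow_subgroup (zpowers d) N
      (by rw [normalizer_eq_top]; exact le_top)
      (by rw [Nat.card_zpowers, hd]; exact Nat.coprime_two_left.2 hNodd)
      (Or.inl (Group.isSolvable_of_comm fun a b => mul_comm' a b)) q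
    exact ⟨Q, fun x hx => (mem_normalizer_iff.1 (hQ (mem_zpowers d)) x).1 hx⟩
  have := Fact.mk hp
  obtain ⟨S, hS⟩ := hsyl p
  have hcop : (S : Subgroup N).index.Coprime ((centralizer {d}).subgroupOf N).index := by
    refine Nat.Coprime.symm (Nat.coprime_of_dvd fun q hq h1 h2 => ?_)
    have := Fact.mk hq
    have hqp : q ≠ p := by rintro rfl; exact S.not_dvd_index h2
    obtain ⟨Q, hQ⟩ := hsyl q
    refine Q.not_dvd_index (h1.trans (index_dvd_of_le fun x hx => ?_))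
    have hx' : (x : G) ∈ (Q : Subgroup N).map N.subtype := ⟨x, hx, rfl⟩
    obtain ⟨k, hk⟩ := Q.isPGroup'.map N.subtype ⟨_, mul_mem (hQ _ hx') (inv_mem hx')⟩
    have h3 : orderOf (d * x * d⁻¹ * (x : G)⁻¹) ∣ q ^ k :=
      orderOf_dvd_of_pow_eq_one (congrArg Subtype.val hk)
    obtain ⟨m, hm⟩ := hprod d hdD _ (conj_mem_conjugatesOf (x : G) hdD)
    rw [hi, mul_assoc, mul_assoc, ← mul_assoc (x : G)] at h3
    have h4 : orderOf (d * (x * d * (x : G)⁻¹)) = 1 :=
      Nat.eq_one_of_dvd_coprimes (((Nat.coprime_primes hq hp).2 hqp).pow k m) h3 hm.dvd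
    rw [orderOf_eq_one_iff] at h4
    rw [mem_subgroupOf, mem_centralizer_singleton_iff]
    have h5 := eq_inv_of_mul_eq_one_right h4
    rw [hi] at h5
    exact mul_inv_eq_iff_eq_mul.1 h5
  have horb' : ∀ e ∈ conjugatesOf d, ∃ s ∈ (S : Subgroup N).map N.subtype, e = s * d * s⁻¹ := by
    intro e he
    obtain ⟨n, hn, rfl⟩ := horb e he
    obtain ⟨s, hs, c, hc, h⟩ := H4.exists_mul_of_coprime_index hcop ⟨n, hn⟩
    have h1 : n = s * c := congrArg Subtype.val h
    have h2 : (c : G) * d = d * c := mem_centralizer_singleton_iff.1 (mem_subgroupOf.1 hc)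
    exact ⟨s, ⟨s, hs, rfl⟩, by rw [h1, mul_assoc (s : G) c d, h2]; group⟩
  have hle : closure {g | ∃ a ∈ conjugatesOf d, ∃ b ∈ conjugatesOf d, g = a * b} ≤
      (S : Subgroup N).map N.subtype := by
    rw [closure_le]
    rintro _ ⟨a, ha, b, hb, rfl⟩
    obtain ⟨s, hs, rfl⟩ := horb' a ha
    obtain ⟨t, ht, rfl⟩ := horb' b hb
    have := mul_mem (mul_mem hs (hS _ (mul_mem (inv_mem hs) ht))) (inv_mem ht)
    rw [hi] at this
    simpa only [mul_assoc, SetLike.mem_coe] using this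
  have hn : (closure {g | ∃ a ∈ conjugatesOf d, ∃ b ∈ conjugatesOf d, g = a * b}).Normal :=
    normal_closure_of_conj_mem fun g _ ⟨a, ha, b, hb, e⟩ =>
      ⟨_, conj_mem_conjugatesOf g ha, _, conj_mem_conjugatesOf g hb, by rw [e]; group⟩
  intro a ha b hb
  exact H2.le_pCore ((S.isPGroup'.map N.subtype).to_le hle) (subset_closure ⟨a, ha, b, hb, rfl⟩)

theorem commutator_le_of_mul_mem {d : G} {D : Set G} (hgen : closure D = ⊤) {K : Subgroup G}
    [K.Normal] (h : ∀ e ∈ D, d⁻¹ * e ∈ K) : commutator G ≤ K := by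
  have h1 : ∀ g : G, (g : G ⧸ K) ∈ zpowers (d : G ⧸ K) := by
    intro g
    have : closure D ≤ (zpowers (d : G ⧸ K)).comap (QuotientGroup.mk' K) := by
      rw [closure_le]
      intro e he
      have : (e : G ⧸ K) = d := (QuotientGroup.eq.2 (h e he)).symm
      simp [this]
    exact this (hgen ▸ mem_top g)
  rw [commutator_def, commutator_le]
  intro a _ b _
  rw [← QuotientGroup.eq_one_iff]
  obtain ⟨i, hi⟩ := h1 a
  obtain ⟨j, hj⟩ := h1 b
  have : Commute (a : G ⧸ K) b := by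
    rw [← hi, ← hj]; exact (Commute.refl _).zpow_zpow i j
  rw [commutatorElement_def]
  simp only [QuotientGroup.mk_mul, QuotientGroup.mk_inv]
  rw [this.eq]; simp

end H75
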